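import Cfsg.Agent.H536.PQR.Tools
import Cfsg.Agent.H492.IMHeCnt
import Cfsg.Agent.S2049

/-!
# S3988: the row of `He` (helper536): triples (2, 3, 17), (2, 5, 7)
-/

set_option autoImplicit false
set_option maxRecDepth 100000

namespace Cfsg.Agent.H536.PQR.He

open Cfsg Cfsg.Agent.H562.PQR Cfsg.Agent.H80.Fpf Cfsg.Agent.H536.PQR
open Cfsg.Spor.He (Gen)
open Cfsg.Agent.SporadicB.HePerm (act wd)
open Cfsg.Agent.FixBN.HeStab Cfsg.Agent.KFacts.He.Lv Cfsg.Agent.H492.IMHeCnt

theorem row_He : RowOdd Cfsg.Spor.He := by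
  have hm : MultDvd Cfsg.Spor.He 1 := multDvd_of_cyclic one_ne_zero S2049.result
  have h17 : TripABC 2 3 17 Cfsg.Spor.He := by
    refine trip_mul hm (fun s hs h => absurd (Nat.dvd_one.1 h) hs.one_lt.ne') (by norm_num) (by norm_num)
      (by norm_num) (by norm_num) (by norm_num) (by norm_num) (x := wd [.a, .d, .e, .f]) (y := wd [.b, .c])
      (pe_of_order (by norm_num) 1 (orderOf_of (n := 4) (by decide) (by decide +kernel)))
      (pe_of_order (by norm_num) 0 (orderOf_of (n := 3) (by decide) (by decide +kernel))) ?_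
    rw [← wd_append]
    exact pe_of_order (by norm_num) 0 (orderOf_of (n := 17) (by decide) (by decide +kernel))
  have h57 : TripABC 2 5 7 Cfsg.Spor.He := by
    refine trip_mul hm (fun s hs h => absurd (Nat.dvd_one.1 h) hs.one_lt.ne') (by norm_num) (by norm_num)
      (by norm_num) (by norm_num) (by norm_num) (by norm_num) (x := wd [.c, .f, .g]) (y := wd [.c, .d, .e])
      (pe_of_order (by norm_num) 1 (orderOf_of (n := 4) (by decide) (by decide +kernel)))
      (pe_of_order (by norm_num) 0 (orderOf_of (n := 5) (by decide) (by decide +kernel))) ?_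
    rw [← wd_append]
    exact pe_of_order (by norm_num) 0 (orderOf_of (n := 7) (by decide) (by decide +kernel))
  intro p hp hp2 hd
  right
  rw [card_he] at hd
  have hm2 := prime_mem hp [2, 3, 5, 7, 17] (by decide) 10 hd (by norm_num)
  simp only [List.mem_cons, List.not_mem_nil, or_false] at hm2
  rcases hm2 with rfl | rfl | rfl | rfl | rfl
  · exact absurd rfl hp2
  · exact ⟨2, 3, 17, by norm_num, Or.inl rfl, h17⟩
  · exact ⟨2, 5, 7, by norm_num, Or.inl rfl, h57⟩
  · exact ⟨2, 5, 7, by norm_num, Or.inl rfl, h57⟩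
  · exact ⟨2, 3, 17, by norm_num, Or.inl rfl, h17⟩

end Cfsg.Agent.H536.PQR.He
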