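import Cfsg.Agent.H536.PQR.Tools
import Cfsg.Agent.RuD.Letters
import Cfsg.Agent.RuLat.Main
import Cfsg.Agent.S2051

/-!
# S3988: the row of `Ru` (helper536): triples (2, 3, 29), (2, 5, 7), (2, 3, 13)
-/

set_option autoImplicit false
set_option maxRecDepth 100000
set_option exponentiation.threshold 5000

namespace Cfsg.Agent.H536.PQR.Ru

open Cfsg Cfsg.Agent.H562.PQR Cfsg.Agent.H80.Fpf Cfsg.Agent.H536.PQR
open Cfsg.Agent.SporadicB Cfsg.Agent.SporadicB.RuOrder Cfsg.Agent.SporRec.TCUpperCert Cfsg.Agent.SporRec.R3.Kernel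
  Cfsg.Agent.RuD.Letters

/-- the word `w ^ n` -/
def pw (w : List ℕ) : ℕ → List ℕ
  | 0 => []
  | n + 1 => w ++ pw w n

theorem wprod_pw (w : List ℕ) (n : ℕ) : (wprod ml (pw w n) : RuOrder.H) = wprod ml w ^ n := by
  induction n with
  | zero => rfl
  | succ n ih =>
    show wprod ml (w ++ pw w n) = _
    rw [wprod_append, ih, pow_succ']

/-- the base points are fixed -/
noncomputable def chk (u : List ℕ) : Bool := allL (fun b => Nat.beq (evalK u b) b) [0, 29, 580, 577]

theorem eq_one_of_chk {u : List ℕ} (h : chk u = true) : (wprod ml u : RuOrder.H) = 1 := by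
  apply eq_of_base
  have h1 := (allL_iff _ _).1 h
  intro b hb
  rw [evalK_eq]
  simp only [List.mem_cons, List.not_mem_nil, or_false] at hb
  rcases hb with rfl | rfl | rfl | rfl
  · exact Nat.eq_of_beq_eq_true (h1 0 (by simp))
  · exact Nat.eq_of_beq_eq_true (h1 29 (by simp))
  · exact Nat.eq_of_beq_eq_true (h1 580 (by simp))
  · exact Nat.eq_of_beq_eq_true (h1 577 (by simp))

theorem ne_one_of {u : List ℕ} (i : Fin 4060) (h : Nat.beq (evalK u i) i = false) :
    (wprod ml u : RuOrder.H) ≠ 1 := by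
  intro h1
  have h2 := evalK_eq u i
  rw [h1] at h2
  have h3 : evalK u i = i := h2.symm
  rw [h3, Nat.beq_refl] at h
  exact absurd h (by decide)

theorem pe_w {a : ℕ} (ha : a.Prime) (k : ℕ) (w : List ℕ) (i : Fin 4060) (h : chk (pw w (a ^ k)) = true)
    (hi : Nat.beq (evalK w i) i = false) : PE a (wprod ml w : RuOrder.H) := by
  refine pe_of_pow ha k ?_ (ne_one_of i hi)
  rw [← wprod_pw]
  exact eq_one_of_chk h

theorem mult : MultDvd Spor.Ru 2 := multDvd_of_cyclic (by norm_num) S2051.result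

theorem mult_two {a b c : ℕ} : ∀ s : ℕ, s.Prime → s ∣ 2 → s = 2 ∨ s = a ∨ s = b ∨ s = c :=
  fun _ hs h => Or.inl ((Nat.prime_dvd_prime_iff_eq hs Nat.prime_two).1 h)

/-- a triple of the model -/
theorem trip_ru (e : Spor.Ru ≃* RuOrder.H) {a b c : ℕ} (ha : a.Prime) (hb : b.Prime) (hc : c.Prime) (hab : a ≠ b)
    (hac : a ≠ c) (hbc : b ≠ c) {x y : RuOrder.H} (hx : PE a x) (hy : PE b y) (hz : PE c (x * y)) :
    TripABC a b c Spor.Ru := by
  refine trip_mul mult mult_two ha hb hc hab hac hbc (hx.congr e.symm) (hy.congr e.symm) ?_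
  rw [← map_mul]
  exact hz.congr e.symm

theorem row_Ru : RowOdd Cfsg.Spor.Ru := by
  have e := Cfsg.Agent.RuLat.Main.equiv
  have t29 : TripABC 2 3 29 Spor.Ru := by
    refine trip_ru e Nat.prime_two Nat.prime_three (by norm_num) (by norm_num) (by norm_num)
      (by norm_num) (x := wprod ml [2, 3, 3]) (y := wprod ml [0, 5])
      (pe_w Nat.prime_two 1 _ 0 (by decide +kernel) (by decide +kernel))
      (pe_w Nat.prime_three 1 _ 0 (by decide +kernel) (by decide +kernel)) ?_
    rw [← wprod_append]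
    exact pe_w (by norm_num) 1 _ 0 (by decide +kernel) (by decide +kernel)
  have t13 : TripABC 2 3 13 Spor.Ru := by
    refine trip_ru e Nat.prime_two Nat.prime_three (by norm_num) (by norm_num) (by norm_num)
      (by norm_num) (x := wprod ml [5]) (y := wprod ml [0, 3, 4])
      (pe_w Nat.prime_two 1 _ 0 (by decide +kernel) (by decide +kernel))
      (pe_w Nat.prime_three 1 _ 0 (by decide +kernel) (by decide +kernel)) ?_
    rw [← wprod_append]
    exact pe_w (by norm_num) 1 _ 0 (by decide +kernel) (by decide +kernel)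
  have t57 : TripABC 2 5 7 Spor.Ru := by
    refine trip_ru e Nat.prime_two (by norm_num) (by norm_num) (by norm_num) (by norm_num)
      (by norm_num) (x := wprod ml [1]) (y := wprod ml [1, 2, 3])
      (pe_w Nat.prime_two 2 _ 0 (by decide +kernel) (by decide +kernel))
      (pe_w (by norm_num) 1 _ 0 (by decide +kernel) (by decide +kernel)) ?_
    rw [← wprod_append]
    exact pe_w (by norm_num) 1 _ 0 (by decide +kernel) (by decide +kernel)
  intro p hp hp2 hd
  right
  rw [Nat.card_congr e.toEquiv, SporadicB.RuOrder.card_H] at hd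
  have hm2 := prime_mem hp [2, 3, 5, 7, 13, 29] (by decide) 14 hd (by norm_num)
  simp only [List.mem_cons, List.not_mem_nil, or_false] at hm2
  rcases hm2 with rfl | rfl | rfl | rfl | rfl | rfl
  · exact absurd rfl hp2
  · exact ⟨2, 3, 29, by norm_num, Or.inl rfl, t29⟩
  · exact ⟨2, 5, 7, by norm_num, Or.inl rfl, t57⟩
  · exact ⟨2, 5, 7, by norm_num, Or.inl rfl, t57⟩
  · exact ⟨2, 3, 13, by norm_num, Or.inl rfl, t13⟩
  · exact ⟨2, 3, 29, by norm_num, Or.inl rfl, t29⟩

end Cfsg.Agent.H536.PQR.Ru
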