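import Cfsg.Agent.H536.PQR.Tools
import Cfsg.Agent.SuzThree.Basic
import Cfsg.Agent.OrdDiv.Table
import Cfsg.Agent.S2048

/-!
# S3988: the row of `Suz` (helper536): triples (2, 3, 5), (2, 3, 7), (2, 3, 11), (2, 3, 13)
-/

set_option autoImplicit false
set_option maxRecDepth 100000

namespace Cfsg.Agent.H536.PQR.Suz

open Cfsg Cfsg.Agent.H562.PQR Cfsg.Agent.H80.Fpf Cfsg.Agent.H536.PQR
open Cfsg.Spor Cfsg.Agent.Lib.PermNet Cfsg.Agent.Lib.PermNetOrbit Cfsg.Agent.SporadicRecognition.SuzPhi
  Cfsg.Agent.SporadicRecognition.SuzBound Cfsg.Agent.SporadicRecognition.SuzOrder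
  Cfsg.Agent.SuzThree.Nets Cfsg.Agent.SuzThree.Basic

/-- the word `w ^ n` -/
def pw (w : List Suz.Gen) : ℕ → List Suz.Gen
  | 0 => []
  | n + 1 => w ++ pw w n

theorem el_pw (w : List Suz.Gen) (n : ℕ) : el (pw w n) = el w ^ n := by
  induction n with
  | zero =>
    show el [] = _
    have h : (el [] : Suz) = el [] * el [] := by
      conv_lhs => rw [← List.nil_append ([] : List Suz.Gen)]
      exact el_append [] []
    rw [pow_zero]
    exact (mul_left_cancel ((mul_one _).trans h)).symm
  | succ n ih =>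
    show el (w ++ pw w n) = _
    rw [el_append, ih, pow_succ']

theorem pe_el {a : ℕ} (ha : a.Prime) (k : ℕ) (w : List Suz.Gen) (p q : ℕ) (h : t5 (wd (pw w (a ^ k))) = true)
    (hm : mv (wd w) p q = true) (hpq : Nat.beq p q = false) : PE a (el w) := by
  refine pe_of_pow ha k ?_ ?_
  · rw [← el_pw]
    exact eq_one_of_t5 (Rep.el _) h
  · intro h1
    have h2 := (Rep.el w).pt hm
    rw [h1, map_one] at h2
    have h3 : p = q := h2
    rw [h3, Nat.beq_refl] at hpq
    exact absurd hpq (by decide)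

theorem card_suz : Nat.card Suz = 448345497600 :=
  OrdDiv.table_spor Spor.Suz (.suz, 448345497600) (by decide +kernel) ⟨MulEquiv.refl _⟩

theorem mult : MultDvd Suz 6 := multDvd_of_cyclic (by norm_num) S2048.result

theorem mult_six {c : ℕ} : ∀ s : ℕ, s.Prime → s ∣ 6 → s = 2 ∨ s = 2 ∨ s = 3 ∨ s = c := by
  intro s hs h
  have h1 : s ∣ 2 * 3 := h
  rcases (hs.dvd_mul).1 h1 with h2 | h2
  · exact Or.inl ((Nat.prime_dvd_prime_iff_eq hs Nat.prime_two).1 h2)
  · exact Or.inr (Or.inr (Or.inl ((Nat.prime_dvd_prime_iff_eq hs Nat.prime_three).1 h2)))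

theorem trip5 : TripABC 2 3 5 Suz := by
  refine trip_mul mult mult_six Nat.prime_two Nat.prime_three (by norm_num) (by norm_num) (by norm_num)
    (by norm_num) (x := el [.a]) (y := el [.b, .c])
    (pe_el Nat.prime_two 1 _ 2 3 (by decide +kernel) (by decide +kernel) (by decide))
    (pe_el Nat.prime_three 1 _ 1 2 (by decide +kernel) (by decide +kernel) (by decide)) ?_
  rw [← el_append]
  exact pe_el (by norm_num) 1 _ 1 3 (by decide +kernel) (by decide +kernel) (by decide)

theorem trip7 : TripABC 2 3 7 Suz := by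
  refine trip_mul mult mult_six Nat.prime_two Nat.prime_three (by norm_num) (by norm_num) (by norm_num)
    (by norm_num) (x := el [.c, .f]) (y := el [.b, .g])
    (pe_el Nat.prime_two 1 _ 2 9 (by decide +kernel) (by decide +kernel) (by decide))
    (pe_el Nat.prime_three 1 _ 0 2 (by decide +kernel) (by decide +kernel) (by decide)) ?_
  rw [← el_append]
  exact pe_el (by norm_num) 1 _ 0 9 (by decide +kernel) (by decide +kernel) (by decide)

theorem trip11 : TripABC 2 3 11 Suz := by
  refine trip_mul mult mult_six Nat.prime_two Nat.prime_three (by norm_num) (by norm_num) (by norm_num)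
    (by norm_num) (x := el [.c, .f]) (y := el [.b, .d, .e, .g])
    (pe_el Nat.prime_two 1 _ 2 9 (by decide +kernel) (by decide +kernel) (by decide))
    (pe_el Nat.prime_three 1 _ 0 2 (by decide +kernel) (by decide +kernel) (by decide)) ?_
  rw [← el_append]
  exact pe_el (by norm_num) 1 _ 0 9 (by decide +kernel) (by decide +kernel) (by decide)

theorem trip13 : TripABC 2 3 13 Suz := by
  refine trip_mul mult mult_six Nat.prime_two Nat.prime_three (by norm_num) (by norm_num) (by norm_num)
    (by norm_num) (x := el [.c, .d, .c]) (y := el [.b, .d, .e, .f])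
    (pe_el Nat.prime_two 1 _ 2 13 (by decide +kernel) (by decide +kernel) (by decide))
    (pe_el Nat.prime_three 1 _ 1 2 (by decide +kernel) (by decide +kernel) (by decide)) ?_
  rw [← el_append]
  exact pe_el (by norm_num) 1 _ 1 13 (by decide +kernel) (by decide +kernel) (by decide)

theorem row_Suz : RowOdd Cfsg.Spor.Suz := by
  intro p hp hp2 hd
  right
  rw [card_suz] at hd
  have hm2 := prime_mem hp [2, 3, 5, 7, 11, 13] (by decide) 13 hd (by norm_num)
  simp only [List.mem_cons, List.not_mem_nil, or_false] at hm2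
  rcases hm2 with rfl | rfl | rfl | rfl | rfl | rfl
  · exact absurd rfl hp2
  · exact ⟨2, 3, 5, by norm_num, Or.inl rfl, trip5⟩
  · exact ⟨2, 3, 5, by norm_num, Or.inl rfl, trip5⟩
  · exact ⟨2, 3, 7, by norm_num, Or.inl rfl, trip7⟩
  · exact ⟨2, 3, 11, by norm_num, Or.inl rfl, trip11⟩
  · exact ⟨2, 3, 13, by norm_num, Or.inl rfl, trip13⟩

end Cfsg.Agent.H536.PQR.Suz
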