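import Cfsg.Agent.H562.PQR.Iface

/-!
# S3988: tools for the sporadic rows (helper536)

`trip_mul` : a triple from `x`, `y`, `x * y`. `pe_of_order`, `pe_of_pow` : elements of prime power order.
`row_of` : the odd primes dividing `|S|` from a factorization.
-/

set_option autoImplicit false

namespace Cfsg.Agent.H536.PQR

open Cfsg Cfsg.Agent.H562.PQR Cfsg.Agent.H80.Fpf

universe u

/-- a triple from `x`, `y` and `x * y` -/
theorem trip_mul {S : Type u} [Group S] {a b c m : ℕ} (hm : MultDvd S m)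
    (hm' : ∀ s : ℕ, s.Prime → s ∣ m → s = 2 ∨ s = a ∨ s = b ∨ s = c)
    (ha : a.Prime) (hb : b.Prime) (hc : c.Prime) (hab : a ≠ b) (hac : a ≠ c) (hbc : b ≠ c) {x y : S} (hx : PE a x)
    (hy : PE b y) (hz : PE c (x * y)) : TripABC a b c S :=
  TripABC.of_mult hm hm' ha hb hc hab hac hbc hx hy hz.inv (mul_inv_cancel _)

theorem mult_one (l : List ℕ) : ∀ s : ℕ, s.Prime → s ∣ 1 → s ∈ l :=
  fun _ hs h => absurd (Nat.dvd_one.1 h) hs.one_lt.ne'

theorem pe_of_order {S : Type u} [Group S] {a : ℕ} (ha : a.Prime) {x : S} (k : ℕ) (h : orderOf x = a ^ (k + 1)) :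
    PE a x := by
  refine ⟨?_, k + 1, h⟩
  rintro rfl
  rw [orderOf_one] at h
  exact (Nat.one_lt_pow (Nat.succ_ne_zero k) ha.one_lt).ne h

/-- order dividing a prime power -/
theorem pe_of_pow {S : Type u} [Group S] {a : ℕ} (ha : a.Prime) {x : S} (k : ℕ) (h : x ^ a ^ k = 1) (h1 : x ≠ 1) :
    PE a x := by
  refine ⟨h1, ?_⟩
  obtain ⟨j, -, hj⟩ := (Nat.dvd_prime_pow ha).1 (orderOf_dvd_of_pow_eq_one h)
  exact ⟨j, hj⟩

/-- prime divisors from a factorization -/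
theorem prime_mem {p n : ℕ} (hp : p.Prime) (l : List ℕ) (hl : ∀ q ∈ l, q.Prime) (k : ℕ) (h : p ∣ n)
    (hn : n ∣ l.prod ^ k) : p ∈ l := by
  have h1 : p ∣ l.prod := hp.dvd_of_dvd_pow (h.trans hn)
  rw [Prime.dvd_prod_iff hp.prime] at h1
  obtain ⟨q, hq, hpq⟩ := h1
  rwa [(Nat.prime_dvd_prime_iff_eq hp (hl q hq)).1 hpq]

end Cfsg.Agent.H536.PQR
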